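import Cfsg.Agent.HexModel.Main

/-!
# Odd central extensions of `G₂(q)`, `³D₄(q)`, `q` even, split

`Split K`: every perfect finite central extension of `K` with kernel of odd order is an isomorphism.
* `split_of_hexTwo`: true if `K` is generated by a hexagonal system in characteristic two;
* `split_G2`, `split_D4`: `G₂(q)`, `³D₄(q)`, `q` even.
-/

set_option autoImplicit false

namespace Cfsg.Agent.H294.MulHex

open Cfsg.Lie Cfsg.Agent.StdRank2.Hex Cfsg.Agent.StdRank2.Hex.HexTwo Cfsg.Agent.StdRank2.FrameLift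
open Cfsg.Agent.HexModel

universe u v

/-- Every perfect finite central extension of `K` with kernel of odd order is an isomorphism: the odd part of the
Schur multiplier of `K` is trivial (for `K` perfect). -/
def OddSplit (K : Type v) [Group K] : Prop :=
  ∀ (X : Type u) [Group X] [Finite X] (f : X →* K), Function.Surjective f → commutator X = ⊤ →
    f.ker ≤ Subgroup.center X → Odd (Nat.card f.ker) → f.ker = ⊥

theorem OddSplit.congr {K K' : Type*} [Group K] [Group K'] (e : K ≃* K') (h : OddSplit.{u} K) : OddSplit.{u} K' := by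
  intro X _ _ f hf hp hc ho
  have hk : (e.symm.toMonoidHom.comp f).ker = f.ker := by
    ext x
    rw [MonoidHom.mem_ker, MonoidHom.mem_ker, MonoidHom.comp_apply]
    exact map_eq_one_iff _ e.symm.injective
  have := h X (e.symm.toMonoidHom.comp f) (e.symm.surjective.comp hf) hp (by rw [hk]; exact hc) (by rw [hk]; exact ho)
  rwa [hk] at this

/-- the isomorphism -/
theorem OddSplit.nonempty_equiv {K : Type v} [Group K] (h : OddSplit.{u} K) {X : Type u} [Group X] [Finite X] (f : X →* K)
    (hf : Function.Surjective f) (hp : commutator X = ⊤) (hc : f.ker ≤ Subgroup.center X) (ho : Odd (Nat.card f.ker)) :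
    Nonempty (X ≃* K) :=
  ⟨MulEquiv.ofBijective f ⟨(MonoidHom.ker_eq_bot_iff f).1 (h X f hf hp hc ho), hf⟩⟩

theorem split_of_hexTwo {E : Type*} [Field E] [Finite E] {σ : E ≃+* E} {K : Type v} [Group K] {y : ZMod 12 → E → K}
    (h : HexTwo σ y) (htop : AA σ y = ⊤) : OddSplit.{u} K := by
  intro X _ _ f hf hp hc ho
  have c : OddCover f := OddCover.of_card hf hc ho
  have h0 := lift_hexTwo c h
  have h1 := lift_AA c h htop hp
  rw [eq_bot_iff]
  intro z hz
  rw [Subgroup.mem_bot]
  refine center_eq_one h0 (g := z) (by rw [h1]; trivial) fun k a _ => ?_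
  rw [mul_inv_eq_iff_eq_mul]
  exact c.central z hz _

/-- **`G₂(q)`, `q` even.** -/
theorem split_G2 {F : Type*} [Field F] [Fintype F] {a : ℕ} (hc : Fintype.card F = 2 ^ a) :
    OddSplit.{u} ↥(chevG2.group F) :=
  split_of_hexTwo (G2.hexTwo (Main.two_eq_zero hc)) Main.g2_top

/-- **`³D₄(q)`, `q` even.** -/
theorem split_D4 {K : Type*} [Field K] [Fintype K] {a : ℕ} (ha : 1 ≤ a) (hc : Fintype.card K = 8 ^ a) :
    OddSplit.{u} ↥(twistedD4 K (2 ^ a)) := by
  obtain ⟨σ, hσ, h3, -, -⟩ := Main.exists_sigma ha hc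
  have h2 : (2 : K) = 0 := by
    apply Main.two_eq_zero (n := 3 * a)
    rw [hc, pow_mul]
    norm_num
  exact split_of_hexTwo (Main.d4_hexTwo hσ h2 h3) (Main.d4_top hσ h2)

end Cfsg.Agent.H294.MulHex
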