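import Cfsg.Agent.H294.Gen
import Cfsg.Agent.H294.CoreHex
import Cfsg.Agent.H294.MulHex
import Cfsg.Agent.S1071

/-!
# Standard subgroups of type `³D₄(q)`, `q` even, whose centralizer has cyclic Sylow 2-subgroups
-/

set_option autoImplicit false

namespace Cfsg.Agent.H294.D4Std

open Cfsg Subgroup Cfsg.Agent.H293.StdOdd Cfsg.Agent.H293.G2Odd Cfsg.Agent.H293.G2Std

universe u v

theorem noOddExt_of_split {K : Type*} [Group K] (h : MulHex.OddSplit.{u} K) : NoOddExt.{u} K := by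
  intro X _ _ hp f hf hc ho
  exact (MonoidHom.ker_eq_bot_iff f).1 (h X f hf hp hc ho)

theorem noOddExt {K : Type*} [Field K] [Fintype K] {a : ℕ} (ha : 1 ≤ a) (hc : Fintype.card K = 8 ^ a) :
    NoOddExt.{u} ↥(Cfsg.Lie.twistedD4 K (2 ^ a)) := noOddExt_of_split (MulHex.split_D4 ha hc)

theorem exists_field (n : ℕ) (hn : 1 ≤ n) : ∃ (E : Type) (_ : Field E) (_ : Fintype E), Fintype.card E = 8 ^ n := by
  let _ : Fintype (GaloisField 2 (3 * n)) := Fintype.ofFinite _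
  refine ⟨GaloisField 2 (3 * n), inferInstance, inferInstance, ?_⟩
  rw [← Nat.card_eq_fintype_card, GaloisField.card 2 (3 * n) (by omega), pow_mul]
  norm_num

/-- simplicity -/
theorem simple {K : Type*} [Field K] [Fintype K] {a : ℕ} (ha : 1 ≤ a) (hc : Fintype.card K = 8 ^ a) :
    IsSimpleGroup ↥(Cfsg.Lie.twistedD4 K (2 ^ a)) ∧ ¬ IsMulCommutative ↥(Cfsg.Lie.twistedD4 K (2 ^ a)) :=
  Cfsg.Agent.S1071.result ((isPrimePow_nat_iff _).2 ⟨2, a, Nat.prime_two, by omega, rfl⟩)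
    (by rw [hc, ← pow_mul, mul_comm, pow_mul]; norm_num)

variable {G : Type u} [Group G] [Finite G]

/-- **The theorem.** -/
theorem main (L : Subgroup G) (hL : Cfsg.IsStandardSubgroup L)
    {K : Type v} [Field K] [Fintype K] (n : ℕ) (hn : 1 ≤ n) (hK : Fintype.card K = 8 ^ n)
    (hLX : Nonempty (↥L ≃* ↥(Cfsg.Lie.twistedD4 K (2 ^ n))))
    (hR : ∀ R : Sylow 2 ↥(centralizer (L : Set G)), IsCyclic ↥(R : Subgroup ↥(centralizer (L : Set G)))) :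
    (L ⊔ Cfsg.oddCore G).Normal ∨
      (∃ (E : Type) (_ : Field E) (_ : Fintype E), Fintype.card E = 64 ^ n ∧
        Nonempty (↥(Cfsg.layer G) ≃* ↥(Cfsg.Lie.twistedD4 E (4 ^ n)))) ∨
      Nonempty (↥(Cfsg.layer G) ≃* ↥L × ↥L) := by
  by_cases hnorm : (L ⊔ Cfsg.oddCore G).Normal
  · exact Or.inl hnorm
  right
  have h : Hyp L := ⟨hL, hR⟩
  obtain ⟨eL⟩ := hLX
  obtain ⟨K₀, i1, i2, hK₀⟩ := exists_field n hn
  obtain ⟨E, j1, j2, hE⟩ := exists_field (2 * n) (by omega)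
  have φ : K ≃+* K₀ := FiniteField.ringEquivOfCardEq (by rw [hK, hK₀])
  have eL₀ : ↥L ≃* ↥(Cfsg.Lie.twistedD4 K₀ (2 ^ n)) := eL.trans (Cfsg.Agent.Hexagon.D4Field.equiv φ (2 ^ n))
  obtain ⟨hs, hnc⟩ := simple hn hK₀
  have hZ : center ↥L = ⊥ := center_eq_bot (simple_congr eL₀.symm hs) (nc_congr eL₀.symm hnc)
  obtain ⟨hlay, hc⟩ := Gen.general h hnorm hs hnc (noOddExt hn hK₀) (by rw [hZ]; simp) ((quotBot hZ).trans eL₀)
    (noOddExt (a := 2 * n) (by omega) hE) (by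
      intro H _ _ N A t C hZA e
      obtain ⟨-, ⟨z, hz, hz1, -, g, hg, -⟩, hN⟩ := CoreHex.d4_exact C hZA hn hK₀ e
      exact ⟨hN E hE, g, z, hz, hz1, hg⟩)
  have h4 : (2 : ℕ) ^ (2 * n) = 4 ^ n := by rw [pow_mul]; norm_num
  rcases hc with k | k
  · left
    obtain ⟨k⟩ := k
    refine ⟨E, j1, j2, by rw [hE, pow_mul]; norm_num, ?_⟩
    rw [hlay, ← h4]
    exact ⟨k⟩
  · right
    obtain ⟨k⟩ := k
    rw [hlay]
    exact ⟨k.trans (eL₀.symm.prodCongr eL₀.symm)⟩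

end Cfsg.Agent.H294.D4Std
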